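import Cfsg.Agent.H83.TF8.Inst
import Cfsg.Agent.H800.TF8.E1F

/-!
# `²F₄(8)`: the data `Fr` of helper800 for `Pa S` (helper83)

`fr_Pa`, `e1_Pa` (= (E1) of helper315's `key_abs`).
-/

set_option autoImplicit false
set_option linter.unusedSectionVars false

namespace Cfsg.Agent.H83.TF8

open Cfsg.Agent.SplitTwo Cfsg.Agent.SplitTwo.ZS Cfsg.Agent.TitsThree.RankTwoZ
open Cfsg.Agent.KFacts.TwF4 Cfsg.Agent.KFacts.TwF4.Arc Cfsg.Agent.KFacts.TwF4.Inv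
open Cfsg.Agent.H84.TwF4Two Cfsg.Agent.H84.GaussTwF4 Cfsg.Agent.H84.TF8
open Cfsg Cfsg.Agent.Characters Cfsg.Agent.OddOrderCharacters

universe u

variable {F : Type*} [Field F] {σ : F →+* F} {G : Type u} [Group G] {S : Full σ G} [Finite F]

/-- **The data of (E1)** for `Pa S`. -/
theorem fr_Pa (hopp : ∀ x ∈ Bo S, x ∈ J S.XZ 9 16 → x = 1) :
    H800.TF8.Fr (Pa S) (J S.XZ 1 8) (J S.XZ 1 7) (S.XZ 8) (LL S) (Zz S) (nn S) where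
  mem := fun _ => Iff.rfl
  norm := fun _ hp _ hu => UP_normal hp hu
  UPU := J_mono le_rfl (by norm_num)
  V1L := fun _ hx => X8_le hx
  V1U := fun _ hx => mem_J hx (by norm_num) le_rfl
  split := fun _ hu => U_split hu
  comm := fun _ hz _ hl => Zz_comm hz hl
  n_sq := nn_sq
  n_comm := fun _ hl => nn_LL hl
  n_inv := fun _ hz => nn_Zz hz
  n_U := fun _ hu h => UP_inter hopp hu (by rw [nn_inv] at h ⊢; exact h)
  n_not := nn_not_mem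
  cosets := PGP

/-- **(E1)** of helper315's `key_abs`. -/
theorem e1_Pa [Fintype G] [Fintype ↥(Pa S)] [Fintype ↥(J S.XZ 1 8)] (hF : Nat.card F = 8)
    (hopp : ∀ x ∈ Bo S, x ∈ J S.XZ 9 16 → x = 1) (hcU : Nat.card ↥(J S.XZ 1 7) = 2 ^ 30) (h19 : 19 ∣ (Pa S).index)
    (hcP : ¬ 19 ∣ Nat.card ↥(Pa S)) (hcop : Nat.Coprime 5461 (Nat.card G)) (hG : ¬ 19 ^ 2 ∣ Nat.card G) {x : G}
    (hx : orderOf x = 19) (ρ : ↥(Pa S) → ℂ) (hρ : IsIrrCharacter ↥(Pa S) ρ)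
    (hker : ∀ (u : G) (hu : u ∈ J S.XZ 1 7), ρ ⟨u, UP_le hu⟩ = ρ 1)
    (h0 : ∑ u : ↥(J S.XZ 1 8), ρ ⟨u, U_le_Pa u.2⟩ = 0) (χ : G → ℂ) (hχ : IsIrrCharacter G χ)
    (hχρ : classInner (fun h : ↥(Pa S) => χ h) ρ ≠ 0) : χ x = 0 :=
  H800.TF8.Fr.e1F (fr_Pa hopp) (fun _ hp => pow_Pa hF hp) hcU h19 hcP hcop hG hρ (fun u hu => hker u hu) h0 hx hχ hχρ

end Cfsg.Agent.H83.TF8
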